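import Cfsg.Agent.Lib.Components2.SylowInduction
import Cfsg.Agent.Lib.PSolvable.Basic
import Cfsg.Agent.Lib.SmallGroups.BrauerReynoldsMain
import Cfsg.Agent.Lib.ClassicalLinear.Card
import Cfsg.Agent.S4343

/-!
# Sylow numbers below `p ^ 2`

A `p`-soluble group has Sylow numbers all whose prime-power parts are `1` modulo `p`; conversely a
simple group of order divisible by `p` with fewer than `p ^ 2` Sylow `p`-subgroups has a number of
them which is not a prime power, unless `p + 1` is a power of two.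
-/

set_option autoImplicit false
set_option linter.style.haveILetI false
set_option linter.unusedSectionVars false

namespace CfsgLib.SylowBelowSquare

open Cfsg CfsgLib.Components2 CfsgLib.PSolvable

universe u

variable {p : ℕ} [hp : Fact p.Prime]

/-- Every prime-power part is `1` modulo `p`. -/
def PartsOne (p m : ℕ) : Prop := m ≠ 0 ∧ ∀ q : ℕ, q.Prime → q ^ m.factorization q ≡ 1 [MOD p]

lemma PartsOne.one : PartsOne p 1 := ⟨one_ne_zero, fun q _ => by simp; rfl⟩

lemma PartsOne.mul {m n : ℕ} (hm : PartsOne p m) (hn : PartsOne p n) : PartsOne p (m * n) := by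
  refine ⟨mul_ne_zero hm.1 hn.1, fun q hq => ?_⟩
  rw [Nat.factorization_mul hm.1 hn.1, Finsupp.add_apply, pow_add]
  simpa using (hm.2 q hq).mul (hn.2 q hq)

/-- Sylow numbers of `p`-soluble groups. -/
theorem partsOne_card_sylow {G : Type u} [Group G] [Finite G] (hG : IsPSolvable p G) :
    PartsOne p (Nat.card (Sylow p G)) := by
  suffices H : ∀ (n : ℕ) (G : Type u) [Group G] [Finite G], Nat.card G = n →
      IsPSolvable p G → PartsOne p (Nat.card (Sylow p G)) from H _ G rfl hG
  intro n
  induction n using Nat.strong_induction_on with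
  | _ n ih =>
  intro G _ _ hn hG
  obtain ⟨P⟩ : Nonempty (Sylow p G) := inferInstance
  have hquot : ∀ (K : Subgroup G) [K.Normal], K ≠ ⊥ → PartsOne p (Nat.card (Sylow p (G ⧸ K))) := by
    intro K _ hK
    refine ih _ ?_ (G ⧸ K) rfl (isPSolvable_quotient hG K)
    rw [← hn, K.card_eq_card_quotient_mul_card_subgroup]
    exact lt_mul_of_one_lt_right Nat.card_pos (Subgroup.one_lt_card_iff_ne_bot _ |>.2 hK)
  have hsub : ∀ (K : Subgroup G), K ≠ ⊤ → PartsOne p (Nat.card (Sylow p K)) := by
    intro K hK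
    refine ih _ ?_ K rfl (isPSolvable_subgroup hG K)
    rw [← hn, ← K.card_mul_index]
    exact lt_mul_of_one_lt_right Nat.card_pos (Subgroup.one_lt_index_of_ne_top hK)
  rcases subsingleton_or_nontrivial G with hs | hnt
  · rw [card_sylow_eq_one_of_normal P]
    · exact PartsOne.one
    · exact ⟨fun x hx g => by rw [Subsingleton.elim (g * x * g⁻¹) x]; exact hx⟩
  by_cases hs : IsSimpleGroup G
  · haveI := hs
    rcases isPGroup_or_coprime_of_isSimpleGroup (p := p) (G := G) hG with h | h
    · rw [card_sylow_eq_one_of_normal P]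
      · exact PartsOne.one
      · have : (P : Subgroup G) = ⊤ := (P.3 (h.to_subgroup ⊤) le_top).symm
        rw [this]; infer_instance
    · rw [card_sylow_eq_one_of_normal P]
      · exact PartsOne.one
      · have : (P : Subgroup G) = ⊥ := by
          rw [Subgroup.eq_bot_iff_card, P.card_eq_multiplicity,
            Nat.factorization_eq_zero_of_not_dvd ((hp.out.coprime_iff_not_dvd).1 h.symm), pow_zero]
        rw [this]; infer_instance
  obtain ⟨K, hKn, hK0, hK1⟩ : ∃ K : Subgroup G, K.Normal ∧ K ≠ ⊥ ∧ K ≠ ⊤ := by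
    by_contra hc
    push Not at hc
    exact hs ⟨fun K hK => or_iff_not_imp_left.2 (hc K hK)⟩
  rw [card_sylow_quotient_mul P K, card_sylow_sup_normal P K]
  refine (hquot K hK0).mul ?_
  by_cases htop : ((P : Subgroup G) ⊔ K) ⊓
      Subgroup.normalizer (((P : Subgroup G) ⊓ K : Subgroup G) : Set G) = ⊤
  swap
  · exact (hsub K hK1).mul (hsub _ htop)
  obtain ⟨hPK, hD⟩ := inf_eq_top_iff.1 htop
  rw [← card_sylow_sup_normal P K, hPK, card_sylow_congr Subgroup.topEquiv]
  have hDn := Subgroup.normalizer_eq_top_iff.1 hD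
  by_cases hD0 : (P : Subgroup G) ⊓ K = ⊥
  swap
  · have hDp : IsPGroup p ((P : Subgroup G) ⊓ K : Subgroup G) := P.2.to_le inf_le_left
    rw [← card_sylow_quotient_of_isPGroup _ hDp]
    exact hquot _ hD0
  have hKp : ¬ p ∣ Nat.card K := by
    intro hd
    obtain ⟨D, hDmap⟩ := exists_sylow_map_subtype_eq_inf K P
    have := D.ne_bot_of_dvd_card hd
    exact this (Subgroup.map_injective K.subtype_injective (by rw [hDmap, hD0, Subgroup.map_bot]))
  have hn' : Nat.card (Sylow p G) =
      (Subgroup.normalizer ((P : Subgroup G) : Set G)).relIndex K := by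
    rw [card_sylow_eq_index P, ← Subgroup.relIndex_top_right, ← hPK, sup_comm,
      relIndex_sup_of_le _ K _ Subgroup.le_normalizer]
  rw [hn']
  exact ⟨Subgroup.index_ne_zero_of_finite,
    fun q hq => ordProj_relIndex_normalizer_modEq_one K hKp P hq⟩

/-- Numbers below `p ^ 2` with all prime-power parts `1` modulo `p` are prime powers. -/
lemma primePow_of_partsOne {m : ℕ} (hm : PartsOne p m) (hlt : m < p ^ 2) :
    ∃ q k : ℕ, q.Prime ∧ m = q ^ k := by
  by_cases h1 : m = 1
  · exact ⟨2, 0, Nat.prime_two, by rw [h1, pow_zero]⟩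
  obtain ⟨r, hr, hrm⟩ := Nat.exists_prime_and_dvd h1
  refine ⟨r, m.factorization r, hr, ?_⟩
  have hbig : ∀ q : ℕ, q.Prime → q ∣ m → p + 1 ≤ q ^ m.factorization q := by
    intro q hq hqm
    have hpos := hq.factorization_pos_of_dvd hm.1 hqm
    have hq1 : 1 < q ^ m.factorization q := Nat.one_lt_pow hpos.ne' hq.one_lt
    have hd : p ∣ q ^ m.factorization q - 1 :=
      (Nat.modEq_iff_dvd' hq1.le).1 (hm.2 q hq).symm
    have := Nat.le_of_dvd (by omega) hd
    omega
  by_contra hne
  have hdiv := Nat.ordProj_dvd m r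
  obtain ⟨c, hc⟩ := hdiv
  have hc1 : c ≠ 1 := fun h => hne (by rw [h, mul_one] at hc; exact hc)
  obtain ⟨s, hs, hsc⟩ := Nat.exists_prime_and_dvd hc1
  have hsr : s ≠ r := by
    rintro rfl
    have hnd := Nat.not_dvd_ordCompl hs hm.1
    refine hnd ?_
    rw [show m / s ^ m.factorization s = c from
      Nat.div_eq_of_eq_mul_right (pow_pos hs.pos _) hc]
    exact hsc
  have hsm : s ∣ m := hc ▸ dvd_mul_of_dvd_right hsc _
  have hcop : (r ^ m.factorization r).Coprime (s ^ m.factorization s) :=
    Nat.Coprime.pow _ _ ((Nat.coprime_primes hr hs).2 hsr.symm)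
  have hprod := Nat.le_of_dvd (Nat.pos_of_ne_zero hm.1)
    (hcop.mul_dvd_of_dvd_of_dvd (Nat.ordProj_dvd m r) (Nat.ordProj_dvd m s))
  have := Nat.mul_le_mul (hbig r hr hrm) (hbig s hs hsm)
  nlinarith

/-- The exceptional family `1 + r p` is never a prime power below `p ^ 2`. -/
lemma not_primePow_exceptional {r h u : ℕ} (hh : 0 < h) (hu : 0 < u)
    (he : r * (u + 1) = h * u * p + u ^ 2 + u + h) (hlt : 1 + r * p < p ^ 2) {q k : ℕ}
    (hq : q.Prime) (hn : 1 + r * p = q ^ k) : False := by
  have hp2 := hp.out.two_le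
  have hrp : r < p := by
    by_contra hge
    push Not at hge
    nlinarith
  obtain rfl : h = 1 := by
    have h1 : h * u * p < p * (u + 1) := by
      have : r * (u + 1) < p * (u + 1) := Nat.mul_lt_mul_of_pos_right hrp (by omega)
      nlinarith
    have h2 : h * u < u + 1 := by
      by_contra hge
      push Not at hge
      nlinarith
    nlinarith
  rw [one_mul] at he
  -- `up + 1 = (u + 1) A`
  obtain ⟨A, hA⟩ : u + 1 ∣ u * p + 1 := by
    have h1 : u + 1 ∣ r * (u + 1) := dvd_mul_left _ _
    rw [he, show u * p + u ^ 2 + u + 1 = (u * p + 1) + u * (u + 1) by ring] at h1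
    exact (Nat.dvd_add_left (dvd_mul_left _ _)).1 h1
  have hr : r = A + u := by
    have : r * (u + 1) = (A + u) * (u + 1) := by rw [he]; nlinarith
    exact Nat.eq_of_mul_eq_mul_right (by omega) this
  have hprod : 1 + r * p = A * (p + u + 1) := by
    have : (1 + r * p) * (u + 1) = A * (p + u + 1) * (u + 1) := by rw [hr]; nlinarith
    exact Nat.eq_of_mul_eq_mul_right (by omega) this
  rw [hprod] at hn
  have hA1 : 1 < A := by
    by_contra hle
    push Not at hle
    nlinarith
  obtain ⟨i, -, hi⟩ := (Nat.dvd_prime_pow hq).1 (hn ▸ dvd_mul_right A (p + u + 1))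
  obtain ⟨j, -, hj⟩ := (Nat.dvd_prime_pow hq).1 (hn ▸ dvd_mul_left (p + u + 1) A)
  have hij : i < j := by
    refine (Nat.pow_lt_pow_iff_right hq.one_lt).1 ?_
    rw [← hi, ← hj]
    nlinarith
  have hdvd : A ∣ p + u + 1 := by rw [hi, hj]; exact Nat.pow_dvd_pow q hij.le
  have h2A : 2 * A ≤ p + u + 1 := by
    obtain ⟨c, hc⟩ := hdvd
    have hc2 : 2 ≤ c := by
      rcases Nat.lt_or_ge c 2 with h | h
      · have : A < p + u + 1 := by rw [hi, hj]; exact Nat.pow_lt_pow_right hq.one_lt hij
        interval_cases c <;> omega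
      · exact h
    rw [hc, mul_comm 2 A]
    exact Nat.mul_le_mul_left A hc2
  -- only `u = 1` is left
  have hu1 : u = 1 := by
    by_contra hne
    have h2u : 2 ≤ u := by omega
    have hup : u + A < p := by omega
    nlinarith
  subst hu1
  have h1 : A ∣ 1 := by
    have e : p + 1 + 1 = 2 * A + 1 := by omega
    rw [e] at hdvd
    exact (Nat.dvd_add_right (dvd_mul_left A 2)).1 hdvd
  exact absurd (Nat.le_of_dvd one_pos h1) (by omega)

/-- A prime power Sylow number of a simple group below `p ^ 2` forces `p + 1` to be a power of two. -/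
theorem mersenne_of_simple {S : Type u} [Group S] [Finite S] [IsSimpleGroup S]
    (hS : ¬ IsMulCommutative S) (hdvd : p ∣ Nat.card S) (hlt : Nat.card (Sylow p S) < p ^ 2)
    {q k : ℕ} (hq : q.Prime) (hn : Nat.card (Sylow p S) = q ^ k) :
    3 < p ∧ ∃ a : ℕ, p + 1 = 2 ^ a := by
  classical
  obtain ⟨P⟩ : Nonempty (Sylow p S) := inferInstance
  have hP : Nat.card ↥(P : Subgroup S) = p := Cfsg.Agent.S4343.core hS p hdvd hlt P
  have hone : 1 < Nat.card (Sylow p S) := CfsgLib.SmallGroups.one_lt_card_sylow hS hdvd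
  obtain ⟨r, hr⟩ : ∃ r, Nat.card (Sylow p S) = 1 + r * p := by
    refine ⟨Nat.card (Sylow p S) / p, ?_⟩
    have h := Nat.div_add_mod (Nat.card (Sylow p S)) p
    have hmod := card_sylow_modEq_one p S
    rw [Nat.ModEq, Nat.mod_eq_of_lt hp.out.one_lt] at hmod
    rw [hmod, mul_comm] at h
    omega
  by_cases hF : ∃ h u : ℕ, 0 < h ∧ 0 < u ∧ r * (u + 1) = h * u * p + u ^ 2 + u + h
  · obtain ⟨h, u, hh, hu, he⟩ := hF
    exact (not_primePow_exceptional hh hu he (hr ▸ hlt) hq (hr.symm.trans hn)).elim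
  push Not at hF
  haveI : CfsgLib.SmallGroups.BrauerReynolds.NonF p r := ⟨fun h u hh hu => hF h u hh hu⟩
  have hnp : Nat.card (Sylow p S) * p ∣ Nat.card S := by
    rw [← CfsgLib.SmallGroups.card_sylow_mul_card_normalizer P]
    refine Nat.mul_dvd_mul_left _ ?_
    calc p = Nat.card ↥(P : Subgroup S) := hP.symm
      _ ∣ _ := Subgroup.card_dvd_of_le Subgroup.le_normalizer
  rcases CfsgLib.SmallGroups.BrauerReynolds.brauer_trichotomy hS P hP hr with
    ⟨F, _, _, hFc, h3, ⟨e⟩⟩ | ⟨m, F, _, _, hFc, hpm, h3, ⟨e⟩⟩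
  · refine ⟨h3, ?_⟩
    have hodd : Odd p := hp.out.odd_of_ne_two (by omega)
    have hcard := CfsgLib.ClassicalLinear.card_PSL_two_of_odd hFc hodd
    rw [← Nat.card_congr e.toEquiv] at hcard
    obtain ⟨c, hc⟩ := hnp
    have hdiv : q ^ k ∣ (p - 1) * (p + 1) := by
      refine ⟨2 * c, ?_⟩
      have hsq : (p - 1) * (p + 1) = p ^ 2 - 1 := by
        rw [mul_comm, ← Nat.sq_sub_sq, one_pow]
      rw [hsq]
      refine Nat.eq_of_mul_eq_mul_left hp.out.pos ?_
      rw [← hcard, hc, hn]
      ring
    have hn1 : q ^ k = 1 + r * p := hn.symm.trans hr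
    have hk1 : 1 < q ^ k := hn ▸ hone
    have hr1 : 1 ≤ r := by
      rcases Nat.eq_zero_or_pos r with h | h
      · rw [h, zero_mul] at hn1; omega
      · exact h
    rcases hq.eq_two_or_odd' with hq2 | hqodd
    · subst hq2
      -- the part of two of one of `p - 1`, `p + 1` is two
      obtain ⟨a, ha⟩ : ∃ a, p = 2 * a + 1 := hodd
      have hk0 : k ≠ 0 := fun h => by rw [h, pow_zero] at hk1; omega
      have h4 : 2 ^ k ≤ 2 * (p + 1) := by
        have hd : 2 ^ k ∣ 4 * a * (a + 1) := by
          rw [show 4 * a * (a + 1) = (p - 1) * (p + 1) by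
            rw [ha, Nat.add_sub_cancel]; ring]
          exact hdiv
        rcases Nat.even_or_odd a with hea | hoa
        · have hc2 : (2 ^ k).Coprime (a + 1) := (Nat.coprime_two_left.2 hea.add_one).pow_left k
          have := Nat.le_of_dvd (by omega) (hc2.dvd_of_dvd_mul_right hd)
          omega
        · have hd' : 2 ^ k ∣ 4 * (a + 1) * a := by rwa [mul_right_comm]
          have hc2 : (2 ^ k).Coprime a := (Nat.coprime_two_left.2 hoa).pow_left k
          have := Nat.le_of_dvd (by omega) (hc2.dvd_of_dvd_mul_right hd')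
          omega
      have hr2 : r ≤ 2 := by nlinarith
      have hev : Even (2 ^ k) := Nat.even_pow.2 ⟨even_two, hk0⟩
      rw [hn1] at hev
      interval_cases r
      · exact ⟨k, by omega⟩
      · obtain ⟨b, hb⟩ := hev
        omega
    · have hcop : (q ^ k).Coprime 2 := (Nat.coprime_two_right.2 (hqodd.pow))
      have hg : Nat.gcd (p - 1) (p + 1) ∣ 2 := by
        have := Nat.dvd_sub (Nat.gcd_dvd_right (p - 1) (p + 1)) (Nat.gcd_dvd_left (p - 1) (p + 1))
        rwa [show p + 1 - (p - 1) = 2 by omega] at this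
      have hle : q ^ k ≤ p + 1 := by
        rcases Nat.eq_zero_or_pos k with hk | hk
        · rw [hk, pow_zero]; omega
        rcases Nat.coprime_or_dvd_of_prime hq (p - 1) with h | h
        · exact Nat.le_of_dvd (by omega) ((h.pow_left k).dvd_of_dvd_mul_left hdiv)
        · have h' : q.Coprime (p + 1) := by
            rcases Nat.coprime_or_dvd_of_prime hq (p + 1) with h' | h'
            · exact h'
            · have := (Nat.dvd_gcd h h').trans hg
              have := Nat.le_of_dvd two_pos this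
              have := hq.two_le
              obtain rfl : q = 2 := by omega
              exact absurd hqodd (by decide)
          have := Nat.le_of_dvd (by omega) ((h'.pow_left k).dvd_of_dvd_mul_right hdiv)
          omega
      have : q ^ k = p + 1 := by nlinarith
      exfalso
      have hev : Even (q ^ k) := this ▸ hodd.add_one
      exact (Nat.not_even_iff_odd.2 hqodd.pow) hev
  · exfalso
    have heven : Even (2 ^ m) := Nat.even_pow.2 ⟨even_two, fun h => by rw [h] at hpm; omega⟩
    have hcard := CfsgLib.ClassicalLinear.card_PSL_two_of_even hFc heven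
    rw [← Nat.card_congr e.toEquiv] at hcard
    obtain ⟨c, hc⟩ := hnp
    have hpowdiv : q ^ k ∣ 2 ^ m * (2 ^ m - 1) := by
      refine ⟨c, ?_⟩
      refine Nat.eq_of_mul_eq_mul_left hp.out.pos ?_
      have hsq : (2 ^ m) ^ 2 - 1 = (2 ^ m - 1) * (2 ^ m + 1) := by
        rw [mul_comm, ← Nat.sq_sub_sq, one_pow]
      rw [hsq, ← hpm, hc, hn] at hcard
      linarith
    have h1 : 1 ≤ 2 ^ m := Nat.one_le_two_pow
    have h2 : (2 ^ m).Coprime (2 ^ m - 1) := by
      have := Nat.coprime_self_add_right.2 (Nat.coprime_one_right (2 ^ m - 1))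
      rw [show 2 ^ m - 1 + 1 = 2 ^ m by omega] at this
      exact this.symm
    have hle : q ^ k ≤ 2 ^ m := by
      rcases Nat.coprime_or_dvd_of_prime hq (2 ^ m) with h | h
      · have := Nat.le_of_dvd (by omega) ((h.pow_left k).dvd_of_dvd_mul_left hpowdiv)
        omega
      · have h' : q.Coprime (2 ^ m - 1) := by
          rcases Nat.coprime_or_dvd_of_prime hq (2 ^ m - 1) with h' | h'
          · exact h'
          · exact absurd (h2 ▸ Nat.dvd_gcd h h') hq.not_dvd_one
        exact Nat.le_of_dvd (by omega) ((h'.pow_left k).dvd_of_dvd_mul_right hpowdiv)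
    rw [← hn, hr] at hle
    rcases Nat.eq_zero_or_pos r with h | h
    · rw [hr, h, zero_mul] at hone; omega
    · nlinarith

/-- Prime power Sylow numbers below `p ^ 2` force `p`-solubility. -/
theorem isPSolvable_of_primePow {G : Type u} [Group G] [Finite G]
    (hp' : ¬ (3 < p ∧ ∃ a : ℕ, p + 1 = 2 ^ a)) (hlt : Nat.card (Sylow p G) < p ^ 2) {q k : ℕ}
    (hq : q.Prime) (hn : Nat.card (Sylow p G) = q ^ k) : IsPSolvable p G := by
  suffices H : ∀ (N : ℕ) (G : Type u) [Group G] [Finite G], Nat.card G = N →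
      Nat.card (Sylow p G) < p ^ 2 → Nat.card (Sylow p G) ∣ q ^ k → IsPSolvable p G from
    H _ G rfl hlt (hn ▸ dvd_rfl)
  intro N
  induction N using Nat.strong_induction_on with
  | _ N ih =>
  intro G _ _ hN hlt hdiv
  obtain ⟨P⟩ : Nonempty (Sylow p G) := inferInstance
  rcases subsingleton_or_nontrivial G with hs | hnt
  · exact isPSolvable_of_subsingleton
  by_cases hs : IsSimpleGroup G
  · haveI := hs
    by_cases hdvd : p ∣ Nat.card G
    swap
    · exact isPSolvable_of_not_dvd hdvd
    by_cases hc : IsMulCommutative G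
    · haveI : Group.IsSolvable G := Group.isSolvable_of_comm fun a b => hc.is_comm.comm a b
      exact isPSolvable_of_isSolvable
    obtain ⟨j, -, hj⟩ := (Nat.dvd_prime_pow hq).1 hdiv
    exact absurd (mersenne_of_simple hc hdvd hlt hq hj) hp'
  obtain ⟨K, hKn, hK0, hK1⟩ : ∃ K : Subgroup G, K.Normal ∧ K ≠ ⊥ ∧ K ≠ ⊤ := by
    by_contra hc
    push Not at hc
    exact hs ⟨fun K hK => or_iff_not_imp_left.2 (hc K hK)⟩
  have e := card_sylow_quotient_mul P K
  rw [card_sylow_sup_normal P K] at e
  have d1 : Nat.card (Sylow p (G ⧸ K)) ∣ Nat.card (Sylow p G) := Dvd.intro _ e.symm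
  have d2 : Nat.card (Sylow p K) ∣ Nat.card (Sylow p G) := by
    rw [e]; exact dvd_mul_of_dvd_right (dvd_mul_right _ _) _
  have hpos : 0 < Nat.card (Sylow p G) := Nat.card_pos
  refine isPSolvable_of_extension K ?_ ?_
  · refine ih _ ?_ K rfl ((Nat.le_of_dvd hpos d2).trans_lt hlt) (d2.trans hdiv)
    rw [← hN, ← K.card_mul_index]
    exact lt_mul_of_one_lt_right Nat.card_pos (Subgroup.one_lt_index_of_ne_top hK1)
  · refine ih _ ?_ (G ⧸ K) rfl ((Nat.le_of_dvd hpos d1).trans_lt hlt) (d1.trans hdiv)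
    rw [← hN, K.card_eq_card_quotient_mul_card_subgroup]
    exact lt_mul_of_one_lt_right Nat.card_pos (Subgroup.one_lt_card_iff_ne_bot _ |>.2 hK0)

end CfsgLib.SylowBelowSquare
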